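import Cfsg.Agent.CharDeep.AltMultMain

/-!
In a double cover of an alternating group the lifts of a four group do not commute.
-/

set_option autoImplicit false

namespace Cfsg.Agent.AltCoverComm

open scoped commutatorElement
open Cfsg.Agent.CharDeep.AltMult

section Rel

variable {W P : Type*} [Group W] [Group P] {π : W →* P} {s : ℕ → P} {m : ℕ}

/-- Lifting Carmichael's relations, given a good lift of the three-cycle. -/
theorem exists_relAlt_two (hc : π.ker ≤ Subgroup.center W) (hs : CoxeterSym.RelA s m)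
    (hm : 3 ≤ m) (hu2 : ∀ u ∈ π.ker, u * u = 1)
    (hpair : ∀ i j, i < m → j < m → ∃ X, π X = s i * s j)
    (H0 : ∀ X Y, π X = s 0 * s 2 → π Y = s 1 * (s 0 * s 2) * s 1 → Commute X Y)
    {T1 : W} (h1π : π T1 = s 0 * s 1) (h1c : T1 ^ 3 = 1) :
    ∃ a : ℕ → W, PSLTwoSub.RelAlt a m ∧ ∀ i, i < m → π (a i) = s i * s 0 := by
  have hm3 : 3 ≤ m := by omega
  obtain ⟨φ, hφ⟩ := exists_local_hom hs 0 3 (by omega)
  let a' : ℕ → Equiv.Perm (Fin 4) := CoxeterSym.adjSwap 3
  have e0 : s 0 = φ (a' 0) := (hφ 0 (by norm_num)).symm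
  have e1 : s 1 = φ (a' 1) := (hφ 1 (by norm_num)).symm
  have e2 : s 2 = φ (a' 2) := (hφ 2 (by norm_num)).symm
  -- the lifts of the four group
  obtain ⟨X, hX⟩ := hpair 0 2 (by omega) (by omega)
  obtain ⟨U, hU⟩ := hpair 1 0 (by omega) (by omega)
  obtain ⟨V, hV⟩ := hpair 2 1 (by omega) (by omega)
  set Y := U * V with hYdef
  have hY : π Y = s 1 * (s 0 * s 2) * s 1 := by rw [hYdef, map_mul, hU, hV]; group
  have hXY : Commute X Y := H0 X Y hX hY
  set G := X * Y with hGdef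
  have hGY : Commute G Y := hXY.mul_left (Commute.refl Y)
  have hG' : π (T1 * G * T1⁻¹) = π Y := by
    rw [map_mul, map_mul, map_inv, hGdef, map_mul, h1π, hX, hY, e0, e1, e2, ← map_mul φ, ← map_mul φ,
      ← map_mul φ, ← map_mul φ, ← map_mul φ, ← map_inv φ, ← map_mul φ, ← map_mul φ]
    refine congrArg φ ?_
    decide
  set G' := T1 * G * T1⁻¹ with hG'def
  have hGG' : Commute G' G := by
    have hu := inv_mul_mem_center hc hG'.symm
    have h : G' = Y * (Y⁻¹ * G') := by group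
    rw [h]
    exact (hGY.symm).mul_left (center_comm hu G).symm
  set T2 := T1 * (G * T1⁻¹ * G⁻¹) with hT2def
  have hT2 : T2 = G' * G⁻¹ := by rw [hT2def, hG'def]; group
  have h2π : π T2 = s 0 * s 2 := by
    rw [hT2, map_mul, map_inv, hG', hY, hGdef, map_mul, hX, hY, e0, e1, e2, ← map_mul φ, ← map_mul φ,
      ← map_mul φ, ← map_mul φ, ← map_inv φ, ← map_mul φ]
    refine congrArg φ ?_
    decide
  have h2sq : T2 * T2 = 1 := by
    have hGG : G * G ∈ Subgroup.center W := by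
      refine hc (MonoidHom.mem_ker.2 ?_)
      rw [map_mul, hGdef, map_mul, hX, hY, e0, e1, e2, ← map_mul φ, ← map_mul φ, ← map_mul φ,
        ← map_mul φ, ← map_mul φ, ← map_one φ]
      refine congrArg φ ?_
      decide
    have hG'2 : G' * G' = G * G := by
      rw [hG'def, show T1 * G * T1⁻¹ * (T1 * G * T1⁻¹) = T1 * (G * G) * T1⁻¹ by group,
        center_comm hGG T1, mul_assoc, mul_inv_cancel, mul_one]
    rw [hT2, ← sq, hGG'.inv_right.mul_pow, sq, hG'2, sq]
    group
  have h12 : (T1⁻¹ * T2) ^ 3 = 1 := by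
    rw [hT2def, inv_mul_cancel_left, conj_pow, inv_pow, h1c]; group
  obtain ⟨T, hT2', hT, h3⟩ := exists_seq hc hs hpair hm3 h2π h2sq
  have hfar : ∀ i j, 2 ≤ i → i + 2 ≤ j → j < m → Commute (T i) (T j) :=
    fun i j hi hij hj => far_commute hc hs hpair H0 hT h3 hi j hij hj
  -- inversion of `T1`
  have hinv : ∀ j, 3 ≤ j → j < m → T j * T1 * (T j)⁻¹ = T1⁻¹ := by
    intro j h hj
    have hx : π (T j * T1 * (T j)⁻¹) = π T1⁻¹ := by
      rw [map_mul, map_mul, map_inv, map_inv, (hT j (by omega) hj).1, h1π]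
      have c0 : s 0 * s j = s j * s 0 := (hs.2.2 0 j (by omega) hj).eq
      have c1 : s 1 * s j = s j * s 1 := (hs.2.2 1 j (by omega) hj).eq
      rw [mul_inv_rev, mul_inv_rev, inv_eq_of_mul_eq_one_right (hs.1 0 (by omega)),
        inv_eq_of_mul_eq_one_right (hs.1 1 (by omega)), inv_eq_of_mul_eq_one_right (hs.1 j hj)]
      calc s 0 * s j * (s 0 * s 1) * (s j * s 0)
          = s 0 * (s j * s 0) * (s 1 * s j) * s 0 := by group
        _ = (s 0 * s 0) * (s j * s j) * (s 1 * s 0) := by rw [← c0, c1]; group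
        _ = s 1 * s 0 := by rw [hs.1 0 (by omega), hs.1 j hj, one_mul, one_mul]
    set x := T j * T1 * (T j)⁻¹ with hxdef
    have hx3 : x ^ 3 = 1 := by rw [hxdef, conj_pow, h1c, mul_one, mul_inv_cancel]
    set u := T1 * x with hudef
    have huk : u ∈ π.ker := by
      rw [MonoidHom.mem_ker, hudef, map_mul, hx, map_inv, mul_inv_cancel]
    have hxu : x = T1⁻¹ * u := by rw [hudef]; group
    have h3u : u ^ 3 = 1 := by
      rwa [hxu, (show Commute T1⁻¹ u from center_comm (hc huk) _).mul_pow, inv_pow, h1c, inv_one,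
        one_mul] at hx3
    have hu1 : u = 1 := by rwa [pow_succ, sq, hu2 u huk, one_mul] at h3u
    rw [hxu, hu1, mul_one]
  -- the relations
  let a : ℕ → W := fun i => if i = 0 then 1 else if i = 1 then T1⁻¹ else (T i)⁻¹
  have ha : ∀ i, 2 ≤ i → a i = (T i)⁻¹ := fun i hi => by
    simp only [a, if_neg (show i ≠ 0 by omega), if_neg (show i ≠ 1 by omega)]
  have haT : ∀ i, 2 ≤ i → i < m → a i = T i := fun i hi him => by
    rw [ha i hi, inv_eq_of_mul_eq_one_right (hT i hi him).2]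
  refine ⟨a, ⟨?_, ?_⟩, ?_⟩
  · intro i hi
    rcases (show i = 0 ∨ i = 1 ∨ 2 ≤ i by omega) with rfl | rfl | h2
    · show (1 * (T1⁻¹)⁻¹) ^ 3 = 1
      rw [one_mul, inv_inv, h1c]
    · show (T1⁻¹ * ((T 2)⁻¹)⁻¹) ^ 3 = 1
      rw [inv_inv, hT2', h12]
    · rw [ha (i + 1) (by omega), haT i h2 (by omega), inv_inv, h3 i h2 hi]
  · intro i j hij hj
    rw [ha j (by omega), inv_inv]
    rcases (show i = 0 ∨ i = 1 ∨ 2 ≤ i by omega) with rfl | rfl | h2
    · show (1 * T j) ^ 2 = 1
      rw [one_mul, sq, (hT j (by omega) hj).2]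
    · show (T1⁻¹ * T j) ^ 2 = 1
      have hsq := (hT j (by omega) hj).2
      have hTi : (T j)⁻¹ = T j := inv_eq_of_mul_eq_one_right hsq
      have h := hinv j (by omega) hj
      rw [hTi] at h
      have h' : T j * T1⁻¹ * T j = T1 := by
        rw [← h]
        simp only [← mul_assoc, hsq, one_mul]
        rw [mul_assoc, hsq, mul_one]
      rw [sq, show T1⁻¹ * T j * (T1⁻¹ * T j) = T1⁻¹ * (T j * T1⁻¹ * T j) by group, h',
        inv_mul_cancel]
    · rw [haT i h2 (by omega), (hfar i j h2 hij hj).mul_pow, sq, sq, (hT i h2 (by omega)).2,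
        (hT j (by omega) hj).2, one_mul]
  · intro i hi
    rcases (show i = 0 ∨ i = 1 ∨ 2 ≤ i by omega) with rfl | rfl | h2
    · show π 1 = _
      rw [map_one, hs.1 0 hi]
    · show π T1⁻¹ = _
      rw [map_inv, h1π, mul_inv_rev, inv_eq_of_mul_eq_one_right (hs.1 1 hi),
        inv_eq_of_mul_eq_one_right (hs.1 0 (by omega))]
    · rw [ha i h2, map_inv, (hT i h2 hi).1, mul_inv_rev, inv_eq_of_mul_eq_one_right (hs.1 i hi),
        inv_eq_of_mul_eq_one_right (hs.1 0 (by omega))]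

end Rel

section Perm

variable {W : Type*} [Group W] {m : ℕ}

local notation "S" => CoxeterSym.adjSwap

/-- A cover of the alternating group in which the four group has commuting lifts is trivial. -/
theorem ker_eq_bot_two (hm : 3 ≤ m) (π : W →* Equiv.Perm (Fin (m + 1)))
    (hr : π.range = alternatingGroup (Fin (m + 1))) (hc : π.ker ≤ Subgroup.center W)
    (hd : π.ker ≤ commutator W) (hu2 : ∀ u ∈ π.ker, u * u = 1)
    (H0 : ∀ X Y, π X = S m 0 * S m 2 → π Y = S m 1 * (S m 0 * S m 2) * S m 1 → Commute X Y) :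
    π.ker = ⊥ := by
  have hm3 : 3 ≤ m := by omega
  have hs := CoxeterSym.adjSwap_relA m
  have hpair : ∀ i j, i < m → j < m → ∃ X, π X = S m i * S m j := fun i j hi hj => by
    have h := pair_mem (m := m) hi hj
    rwa [← hr] at h
  obtain ⟨A, hA⟩ := hpair 0 1 (by omega) (by omega)
  have hA3 : π A ^ 3 = 1 := by
    obtain ⟨φ, hφ⟩ := exists_local_hom hs 0 2 (by omega)
    rw [hA, ← hφ 0 (by norm_num), ← hφ 1 (by norm_num), ← map_mul, ← map_pow,
      show (S 2 0 * S 2 1) ^ 3 = 1 by decide, map_one]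
  have h1π : π (A ^ 4) = S m 0 * S m 1 := by
    rw [map_pow, pow_succ, hA3, one_mul, hA]
  have h1c : (A ^ 4) ^ 3 = 1 := by
    have h := hu2 (A ^ 3) (MonoidHom.mem_ker.2 (by rw [map_pow, hA3]))
    rw [← pow_mul, show 4 * 3 = 3 * 4 from rfl, pow_mul, show 4 = 2 * 2 from rfl, pow_mul, sq (A ^ 3),
      h, one_pow]
  obtain ⟨a, hrel, haπ⟩ := exists_relAlt_two hc hs hm3 hu2 hpair H0 h1π h1c
  obtain ⟨ψ, hψ⟩ := PSLTwoSub.exists_alt_hom hrel
  -- `ψ` is a section
  have hsec : ∀ x : alternatingGroup (Fin (m + 1)), π (ψ x) = (x : Equiv.Perm (Fin (m + 1))) := by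
    intro x
    have h := mem_of_pairs (show 0 < m by omega)
      (K := ((π.comp ψ).eqLocus (alternatingGroup (Fin (m + 1))).subtype).map
        (alternatingGroup (Fin (m + 1))).subtype)
      (by rintro _ ⟨y, -, rfl⟩; exact y.2) ?_ x.2
    · obtain ⟨y, hy, hxy⟩ := h
      have : y = x := Subtype.ext hxy
      rw [← this]
      exact hy
    · intro i j hi hj
      refine ⟨⟨_, pair_mem hi hj⟩, ?_, rfl⟩
      show π (ψ _) = S m i * S m j
      rw [hψ i j hi hj, map_mul, map_inv, haπ i hi, haπ j hj, mul_inv_rev,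
        inv_eq_of_mul_eq_one_right (hs.1 j hj), inv_eq_of_mul_eq_one_right (hs.1 0 (by omega)),
        mul_assoc, ← mul_assoc (S m 0), hs.1 0 (by omega), one_mul]
  have hcl : commutator W ≤ ψ.range := by
    rw [commutator_def, Subgroup.commutator_le]
    intro x _ y _
    have hdec : ∀ w : W, ∃ p ∈ ψ.range, ∃ z ∈ Subgroup.center W, w = p * z := fun w => by
      have hw : π w ∈ alternatingGroup (Fin (m + 1)) := hr ▸ ⟨w, rfl⟩
      refine ⟨ψ ⟨π w, hw⟩, ⟨_, rfl⟩, (ψ ⟨π w, hw⟩)⁻¹ * w, inv_mul_mem_center hc ?_, by group⟩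
      rw [hsec]
    obtain ⟨p, hp, z, hz, rfl⟩ := hdec x
    obtain ⟨q, hq, w, hw, rfl⟩ := hdec y
    have : ⁅p * z, q * w⁆ = ⁅p, q⁆ := by
      have c1 : Commute z (q * w) := (center_comm hz _).symm
      have c2 : Commute p w := center_comm hw p
      rw [commutatorElement_def, commutatorElement_def, mul_inv_rev,
        show p * z * (q * w) * (z⁻¹ * p⁻¹) * (q * w)⁻¹ = p * (z * (q * w) * z⁻¹) * p⁻¹ * (q * w)⁻¹ by
          group, c1.eq, mul_inv_cancel_right, mul_inv_rev,
        show p * (q * w) * p⁻¹ * (w⁻¹ * q⁻¹) = p * q * (w * p⁻¹ * w⁻¹) * q⁻¹ by group,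
        c2.inv_left.symm.eq, mul_inv_cancel_right]
    rw [this, commutatorElement_def]
    exact mul_mem (mul_mem (mul_mem hp hq) (inv_mem hp)) (inv_mem hq)
  rw [eq_bot_iff]
  intro z hz
  obtain ⟨x, rfl⟩ := hcl (hd hz)
  have hx : x = 1 := Subtype.ext ((hsec x).symm.trans (MonoidHom.mem_ker.1 hz))
  rw [hx, map_one]
  exact one_mem _

end Perm

end Cfsg.Agent.AltCoverComm
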