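import Cfsg.Agent.AltCoverComm.Perm
import Cfsg.Agent.AltCoverComm.Lift

/-! Every element of a double cover of an alternating group is a commutator. -/

set_option autoImplicit false

namespace Cfsg.Agent.AltCoverComm

open Equiv Equiv.Perm
open Cfsg.Agent.CharDeep.AltMult (inv_mul_mem_center center_comm)

variable {W : Type*} [Group W] {m : ℕ}

local notation "S" => CoxeterSym.adjSwap

variable (π : W →* Equiv.Perm (Fin (m + 1))) (hr : π.range = alternatingGroup (Fin (m + 1)))
  (hc : π.ker ≤ Subgroup.center W)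

include hr in
theorem exists_lift {σ : Equiv.Perm (Fin (m + 1))} (h : Perm.sign σ = 1) : ∃ X, π X = σ := by
  have : σ ∈ π.range := hr ▸ Perm.mem_alternatingGroup.2 h
  exact this

include hc in
theorem commute_congr {X Y Y' : W} (h : π Y = π Y') (hXY : Commute X Y) : Commute X Y' := by
  have hu := inv_mul_mem_center hc h
  rw [show Y' = Y * (Y⁻¹ * Y') by group]
  exact hXY.mul_right (center_comm hu X)

theorem conj_swap (ρ : Equiv.Perm (Fin (m + 1))) (x y : Fin (m + 1)) : ρ * swap x y * ρ⁻¹ = swap (ρ x) (ρ y) :=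
  (Equiv.swap_apply_apply ρ x y).symm

include hr hc in
theorem pair_not_commute (hm : 3 ≤ m) (hd : π.ker ≤ commutator W) (hu2 : ∀ u ∈ π.ker, u * u = 1)
    (hne : π.ker ≠ ⊥) {a b c d : Fin (m + 1)} (hab : a ≠ b) (hac : a ≠ c) (had : a ≠ d) (hbc : b ≠ c)
    (hbd : b ≠ d) (hcd : c ≠ d) {X Y : W} (hX : π X = swap a b * swap c d)
    (hY : π Y = swap a c * swap b d) : ¬ Commute X Y := by
  classical
  intro hXY
  let o : Fin 4 → Fin (m + 1) := fun i => ⟨i.1, by omega⟩
  let t : Fin 4 → Fin (m + 1) := ![a, b, c, d]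
  have ho : Function.Injective o := fun i j h => Fin.ext (by simpa [o] using h)
  have ht : Function.Injective t := by
    intro i j h
    fin_cases i <;> fin_cases j <;> simp [t] at h ⊢ <;>
      first | exact absurd h ‹_› | exact absurd h.symm ‹_›
  obtain ⟨ρ, hρ⟩ : ∃ ρ : Equiv.Perm (Fin (m + 1)), ∀ i, ρ (o i) = t i := by
    let e := ((Equiv.ofInjective o ho).symm.trans (Equiv.ofInjective t ht))
    refine ⟨e.extendSubtype, fun i => ?_⟩
    rw [Equiv.extendSubtype_apply_of_mem e (o i) ⟨i, rfl⟩]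
    show ((Equiv.ofInjective t ht) ((Equiv.ofInjective o ho).symm ⟨o i, _⟩)).1 = t i
    rw [Equiv.ofInjective_symm_apply]
    rfl
  have h0 : S m 0 = swap (o 0) (o 1) := by
    rw [CoxeterSym.adjSwap, dif_pos (by omega)]; rfl
  have h1 : S m 1 = swap (o 1) (o 2) := by
    rw [CoxeterSym.adjSwap, dif_pos (by omega)]; rfl
  have h2 : S m 2 = swap (o 2) (o 3) := by
    rw [CoxeterSym.adjSwap, dif_pos (by omega)]; rfl
  have hne' : ∀ i j : Fin 4, i ≠ j → o i ≠ o j := fun i j h e => h (ho e)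
  have hmid : S m 1 * (S m 0 * S m 2) * S m 1 = swap (o 0) (o 2) * swap (o 1) (o 3) := by
    have hinv : (S m 1)⁻¹ = S m 1 := by rw [h1, swap_inv]
    calc S m 1 * (S m 0 * S m 2) * S m 1
        = (S m 1 * S m 0 * (S m 1)⁻¹) * (S m 1 * S m 2 * (S m 1)⁻¹) := by
          rw [hinv]; rw [show S m 1 * S m 0 * S m 1 * (S m 1 * S m 2 * S m 1) =
            S m 1 * S m 0 * (S m 1 * S m 1) * S m 2 * S m 1 by group,
            show S m 1 * S m 1 = 1 by rw [h1, swap_mul_self]]
          group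
      _ = _ := by
          rw [h0, h1, h2, conj_swap, conj_swap, swap_apply_of_ne_of_ne (hne' 0 1 (by decide))
            (hne' 0 2 (by decide)), swap_apply_left, swap_apply_right,
            swap_apply_of_ne_of_ne (hne' 3 1 (by decide)) (hne' 3 2 (by decide))]
  refine hne (ker_eq_bot_two hm π hr hc hd hu2 fun X₀ Y₀ hX₀ hY₀ => ?_)
  rw [hmid] at hY₀
  rw [h0, h2] at hX₀
  -- choose an even permutation carrying the standard pair
  obtain ⟨κ, hκs, hκ1, hκ2⟩ : ∃ κ : Equiv.Perm (Fin (m + 1)), Perm.sign κ = 1 ∧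
      κ * (swap (o 0) (o 1) * swap (o 2) (o 3)) * κ⁻¹ = swap a b * swap c d ∧
      (κ * (swap (o 0) (o 2) * swap (o 1) (o 3)) * κ⁻¹ = swap a c * swap b d ∨
        κ * (swap (o 0) (o 2) * swap (o 1) (o 3)) * κ⁻¹ =
          swap a b * swap c d * (swap a c * swap b d)) := by
    have hconj : ∀ (κ : Equiv.Perm (Fin (m + 1))) (x y z w : Fin (m + 1)),
        κ * (swap x y * swap z w) * κ⁻¹ = swap (κ x) (κ y) * swap (κ z) (κ w) := fun κ x y z w => by
      rw [← conj_swap, ← conj_swap]; group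
    rcases Int.units_eq_one_or (Perm.sign ρ) with hs | hs
    · refine ⟨ρ, hs, ?_, Or.inl ?_⟩ <;> rw [hconj, hρ, hρ, hρ, hρ] <;> rfl
    · refine ⟨ρ * swap (o 0) (o 1), by rw [map_mul, hs, Perm.sign_swap (hne' 0 1 (by decide))]; rfl,
        ?_, Or.inr ?_⟩ <;>
        rw [hconj, Perm.mul_apply, Perm.mul_apply, Perm.mul_apply, Perm.mul_apply, swap_apply_left,
          swap_apply_right, swap_apply_of_ne_of_ne (hne' 2 0 (by decide)) (hne' 2 1 (by decide)),
          swap_apply_of_ne_of_ne (hne' 3 0 (by decide)) (hne' 3 1 (by decide)), hρ, hρ, hρ, hρ]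
      · show swap b a * swap c d = _
        rw [swap_comm b a]
      · show swap b c * swap a d = _
        refine Equiv.ext fun x => ?_
        simp only [Perm.mul_apply]
        by_cases q1 : x = a
        · subst q1; simp [swap_apply_def, hab, hac, had, hbc, hbd, hcd, Ne.symm hab, Ne.symm hac,
            Ne.symm had, Ne.symm hbc, Ne.symm hbd, Ne.symm hcd]
        by_cases q2 : x = b
        · subst q2; simp [swap_apply_def, hab, hac, had, hbc, hbd, hcd, Ne.symm hab, Ne.symm hac,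
            Ne.symm had, Ne.symm hbc, Ne.symm hbd, Ne.symm hcd]
        by_cases q3 : x = c
        · subst q3; simp [swap_apply_def, hab, hac, had, hbc, hbd, hcd, Ne.symm hab, Ne.symm hac,
            Ne.symm had, Ne.symm hbc, Ne.symm hbd, Ne.symm hcd]
        by_cases q4 : x = d
        · subst q4; simp [swap_apply_def, hab, hac, had, hbc, hbd, hcd, Ne.symm hab, Ne.symm hac,
            Ne.symm had, Ne.symm hbc, Ne.symm hbd, Ne.symm hcd]
        simp [swap_apply_def, q1, q2, q3, q4]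
  obtain ⟨K, hK⟩ := exists_lift π hr hκs
  have e1 : π (K * X₀ * K⁻¹) = π X := by rw [map_mul, map_mul, map_inv, hK, hX₀, hκ1, hX]
  have key : Commute (K * X₀ * K⁻¹) (K * Y₀ * K⁻¹) := by
    rcases hκ2 with h | h
    · have e2 : π Y = π (K * Y₀ * K⁻¹) := by rw [map_mul, map_mul, map_inv, hK, hY₀, h, hY]
      exact commute_congr π hc e2 ((commute_congr π hc e1.symm hXY.symm).symm)
    · have e2 : π (X * Y) = π (K * Y₀ * K⁻¹) := by
        rw [map_mul, map_mul, map_mul, map_inv, hK, hY₀, h, hX, hY]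
      have hX2 : Commute X (X * Y) := (Commute.refl X).mul_right hXY
      exact commute_congr π hc e2 ((commute_congr π hc e1.symm hX2.symm).symm)
  show X₀ * Y₀ = Y₀ * X₀
  have := key.eq
  rwa [show K * X₀ * K⁻¹ * (K * Y₀ * K⁻¹) = K * (X₀ * Y₀) * K⁻¹ by group,
    show K * Y₀ * K⁻¹ * (K * X₀ * K⁻¹) = K * (Y₀ * X₀) * K⁻¹ by group, mul_left_inj, mul_right_inj]
    at this

include hr hc in
theorem disjoint_commute (hu2 : ∀ u ∈ π.ker, u * u = 1) {a b c d : Fin (m + 1)} {r : Equiv.Perm (Fin (m + 1))}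
    (hra : r a = a) (hrb : r b = b) (hrc : r c = c) (hrd : r d = d) (hsr : Perm.sign r = 1)
    {C R : W} (hC : π C = swap a c * swap b d) (hR : π R = r) : Commute C R := by
  classical
  let p : Fin (m + 1) → Prop := fun x => x ≠ a ∧ x ≠ b ∧ x ≠ c ∧ x ≠ d
  have hpres : ∀ x, p (r x) ↔ p x := fun x => by
    simp only [p]
    constructor <;> rintro ⟨h1, h2, h3, h4⟩
    · exact ⟨fun e => h1 (e ▸ hra), fun e => h2 (e ▸ hrb), fun e => h3 (e ▸ hrc),
        fun e => h4 (e ▸ hrd)⟩
    · exact ⟨fun e => h1 (r.injective (e.trans hra.symm)), fun e => h2 (r.injective (e.trans hrb.symm)),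
        fun e => h3 (r.injective (e.trans hrc.symm)), fun e => h4 (r.injective (e.trans hrd.symm))⟩
  let r₀ : Perm {x // p x} := r.subtypePerm hpres
  have hof : Perm.ofSubtype r₀ = r := by
    refine Perm.ofSubtype_subtypePerm hpres fun x hx => ?_
    refine ⟨fun e => hx (e ▸ hra), fun e => hx (e ▸ hrb), fun e => hx (e ▸ hrc), fun e => hx (e ▸ hrd)⟩
  have hs0 : r₀ ∈ alternatingGroup {x // p x} := by
    rw [Perm.mem_alternatingGroup, ← Perm.sign_ofSubtype, hof, hsr]
  have hle : alternatingGroup {x // p x} ≤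
      ((Subgroup.centralizer ({C} : Set W)).map π).comap Perm.ofSubtype := by
    rw [← closure_three_cycles_eq_alternating, Subgroup.closure_le]
    intro t ht
    have ht3 : (Perm.ofSubtype t : Equiv.Perm (Fin (m + 1))) ^ 3 = 1 := by
      rw [← map_pow, ← (ht.orderOf), pow_orderOf_eq_one, map_one]
    have hts : Perm.sign (Perm.ofSubtype t : Equiv.Perm (Fin (m + 1))) = 1 := by rw [Perm.sign_ofSubtype, ht.sign]
    obtain ⟨T, hT⟩ := exists_lift π hr hts
    refine ⟨T, ?_, hT⟩
    have hfix : ∀ x, ¬ p x → (Perm.ofSubtype t : Equiv.Perm (Fin (m + 1))) x = x := fun x hx =>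
      Perm.ofSubtype_apply_of_not_mem t hx
    have hcomm : Commute (π C) (π T) := by
      rw [hC, hT]
      refine Perm.Disjoint.commute fun x => ?_
      by_cases hx : p x
      · left
        obtain ⟨h1, h2, h3, h4⟩ := hx
        rw [Perm.mul_apply, swap_apply_of_ne_of_ne h2 h4, swap_apply_of_ne_of_ne h1 h3]
      · exact Or.inr (hfix x hx)
    set u := T⁻¹ * (C * T * C⁻¹) with hu
    have huk : u ∈ π.ker := by
      rw [MonoidHom.mem_ker, hu, map_mul, map_mul, map_mul, map_inv, map_inv, hcomm.eq]; group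
    have hT3 : T ^ 3 ∈ π.ker := by rw [MonoidHom.mem_ker, map_pow, hT, ht3]
    have hCT : C * T * C⁻¹ = T * u := by rw [hu]; group
    have h3 : (C * T * C⁻¹) ^ 3 = T ^ 3 := by
      rw [conj_pow, center_comm (hc hT3) C, mul_inv_cancel_right]
    rw [hCT, (show Commute T u from center_comm (hc huk) T).mul_pow, mul_eq_left] at h3
    have hu1 : u = 1 := by rwa [pow_succ, sq, hu2 u huk, one_mul] at h3
    rw [hu1, mul_one] at hCT
    exact Subgroup.mem_centralizer_singleton_iff.2 (mul_inv_eq_iff_eq_mul.1 hCT).symm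
  obtain ⟨T, hT, hTr⟩ := hle hs0
  rw [hof] at hTr
  exact commute_congr π hc (hTr.trans hR.symm) (Subgroup.mem_centralizer_singleton_iff.1 hT).symm

include hr hc in
theorem exists_commutator (hm : 4 ≤ m) (hd : π.ker ≤ commutator W)
    (hu2 : ∀ u ∈ π.ker, u * u = 1) (hne : π.ker ≠ ⊥)
    (huniq : ∀ u ∈ π.ker, ∀ v ∈ π.ker, u ≠ 1 → v ≠ 1 → u = v) (g : W) :
    ∃ a b : W, a * b * a⁻¹ * b⁻¹ = g := by
  classical
  have hsw : ∀ {a b c d : Fin (m + 1)}, a ≠ b → c ≠ d → Perm.sign (swap a b * swap c d : Equiv.Perm (Fin (m + 1))) = 1 :=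
    fun h1 h2 => by rw [map_mul, Perm.sign_swap h1, Perm.sign_swap h2]; rfl
  have hsp : Perm.sign (π g) = 1 := by
    rw [← Perm.mem_alternatingGroup, ← hr]; exact ⟨g, rfl⟩
  by_cases hp1 : π g = 1
  · by_cases hg : g = 1
    · exact ⟨1, 1, by simp [hg]⟩
    let a : Fin (m + 1) := ⟨0, by omega⟩
    let b : Fin (m + 1) := ⟨1, by omega⟩
    let c : Fin (m + 1) := ⟨2, by omega⟩
    let d : Fin (m + 1) := ⟨3, by omega⟩
    have hab : a ≠ b := by simp [a, b]
    have hac : a ≠ c := by simp [a, c]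
    have had : a ≠ d := by simp [a, d]
    have hbc : b ≠ c := by simp [b, c]
    have hbd : b ≠ d := by simp [b, d]
    have hcd : c ≠ d := by simp [c, d]
    obtain ⟨X, hX⟩ := exists_lift π hr (hsw hab hcd)
    obtain ⟨Y, hY⟩ := exists_lift π hr (hsw hac hbd)
    refine ⟨X, Y, huniq _ ?_ g hp1 ?_ hg⟩
    · rw [MonoidHom.mem_ker, map_mul, map_mul, map_mul, map_inv, map_inv, hX, hY]
      refine mul_inv_eq_one.2 (mul_inv_eq_iff_eq_mul.2 ?_)
      refine Equiv.ext fun x => ?_
      simp only [Perm.mul_apply]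
      by_cases q1 : x = a
      · subst q1; simp [swap_apply_def, hab, hac, had, hbc, hbd, hcd, Ne.symm hab, Ne.symm hac,
          Ne.symm had, Ne.symm hbc, Ne.symm hbd, Ne.symm hcd]
      by_cases q2 : x = b
      · subst q2; simp [swap_apply_def, hab, hac, had, hbc, hbd, hcd, Ne.symm hab, Ne.symm hac,
          Ne.symm had, Ne.symm hbc, Ne.symm hbd, Ne.symm hcd]
      by_cases q3 : x = c
      · subst q3; simp [swap_apply_def, hab, hac, had, hbc, hbd, hcd, Ne.symm hab, Ne.symm hac,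
          Ne.symm had, Ne.symm hbc, Ne.symm hbd, Ne.symm hcd]
      by_cases q4 : x = d
      · subst q4; simp [swap_apply_def, hab, hac, had, hbc, hbd, hcd, Ne.symm hab, Ne.symm hac,
          Ne.symm had, Ne.symm hbc, Ne.symm hbd, Ne.symm hcd]
      simp [swap_apply_def, q1, q2, q3, q4]
    · intro h
      exact pair_not_commute π hr hc (by omega) hd hu2 hne hab hac had hbc hbd hcd hX hY
        (commutatorElement_eq_one_iff_commute.1 (by rw [commutatorElement_def]; exact h))
  obtain ⟨α, y, hys, ⟨a, b, c, d, hab, hac, had, hbc, hbd, hcd, hya, hyb, hyc, hyd⟩, hcomm⟩ :=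
    exists_pair (by rw [Fintype.card_fin]; omega) hsp hp1
  obtain ⟨β, hβs, hβ⟩ : ∃ β : Equiv.Perm (Fin (m + 1)), Perm.sign β = 1 ∧ β * y * β⁻¹ * y⁻¹ = π g := by
    rcases Int.units_eq_one_or (Perm.sign α) with hs | hs
    · exact ⟨α, hs, hcomm⟩
    · refine ⟨α * swap a b, by rw [map_mul, hs, Perm.sign_swap hab]; rfl, ?_⟩
      have hwy : y * swap a b * y⁻¹ = swap a b := by rw [conj_swap, hya, hyb, swap_comm]
      rw [← hcomm]
      congr 1
      rw [mul_inv_rev, swap_inv,
        show α * swap a b * y * (swap a b * α⁻¹) = α * (swap a b * (y * swap a b * y⁻¹)) * y * α⁻¹ by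
          group, hwy, swap_mul_self, mul_one]
  obtain ⟨A, hA⟩ := exists_lift π hr hβs
  obtain ⟨Y, hY⟩ := exists_lift π hr hys
  obtain ⟨C, hC⟩ := exists_lift π hr (hsw hac hbd)
  obtain ⟨X, hX⟩ := exists_lift π hr (hsw hab hcd)
  set r := (swap a b * swap c d)⁻¹ * y with hrdef
  have hra : r a = a ∧ r b = b ∧ r c = c ∧ r d = d := by
    rw [hrdef, mul_inv_rev, swap_inv, swap_inv]
    simp only [Perm.mul_apply, hya, hyb, hyc, hyd]
    refine ⟨?_, ?_, ?_, ?_⟩ <;> simp [swap_apply_def, hab, hac, had, hbc, hbd, hcd, Ne.symm hab,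
      Ne.symm hac, Ne.symm had, Ne.symm hbc, Ne.symm hbd, Ne.symm hcd]
  have hrs : Perm.sign r = 1 := by rw [hrdef, map_mul, map_inv, hsw hab hcd, hys]; rfl
  obtain ⟨R, hR⟩ := exists_lift π hr hrs
  have hCR : Commute C R := disjoint_commute π hr hc hu2 hra.1 hra.2.1 hra.2.2.1 hra.2.2.2 hrs hC hR
  have hYXR : π Y = π (X * R) := by rw [map_mul, hX, hR, hY, hrdef, mul_inv_cancel_left]
  have hne' : ¬ Commute C Y := by
    intro h
    have h1 : Commute C (X * R) := commute_congr π hc hYXR h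
    have h2 := h1.mul_right hCR.inv_right
    rw [mul_inv_cancel_right] at h2
    exact pair_not_commute π hr hc (by omega) hd hu2 hne hab hac had hbc hbd hcd hX hC h2.symm
  set v := C * Y * C⁻¹ * Y⁻¹ with hv
  have hcy : swap a c * swap b d * y = y * (swap a c * swap b d) := by
    refine (mul_inv_eq_iff_eq_mul.1 ?_).symm
    rw [show y * (swap a c * swap b d) * y⁻¹ = (y * swap a c * y⁻¹) * (y * swap b d * y⁻¹) by group,
      conj_swap, conj_swap, hya, hyb, hyc, hyd]
    refine Perm.Disjoint.commute fun x => ?_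
    by_cases q1 : x = b
    · subst q1
      exact Or.inr (swap_apply_of_ne_of_ne (Ne.symm hab) hbc)
    by_cases q2 : x = d
    · subst q2
      exact Or.inr (swap_apply_of_ne_of_ne (Ne.symm had) (Ne.symm hcd))
    exact Or.inl (swap_apply_of_ne_of_ne q1 q2)
  have hvk : v ∈ π.ker := by
    rw [MonoidHom.mem_ker, hv, map_mul, map_mul, map_mul, map_inv, map_inv, hC, hY, hcy]; group
  have hv1 : v ≠ 1 := fun h => hne' (commutatorElement_eq_one_iff_commute.1 (by
    rw [commutatorElement_def]; exact h))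
  set h0 := A * Y * A⁻¹ * Y⁻¹ with hh0
  have hk : g * h0⁻¹ ∈ π.ker := by
    rw [MonoidHom.mem_ker, map_mul, map_inv, hh0, map_mul, map_mul, map_mul, map_inv, map_inv, hA, hY,
      hβ, mul_inv_cancel]
  by_cases h1 : g * h0⁻¹ = 1
  · exact ⟨A, Y, (mul_inv_eq_one.1 h1).symm⟩
  · refine ⟨A * C, Y, ?_⟩
    have hgv : g = v * h0 := by
      rw [huniq v hvk _ hk hv1 h1]; group
    rw [hgv]
    calc A * C * Y * (A * C)⁻¹ * Y⁻¹ = A * v * A⁻¹ * h0 := by rw [hv, hh0]; group
      _ = v * h0 := by rw [center_comm (hc hvk) A, mul_inv_cancel_right]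

end Cfsg.Agent.AltCoverComm
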