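import Mathlib

/-!
Every non-trivial even permutation of at least five points is `(a * y * a⁻¹) * y⁻¹` with `y` an even
permutation having two cycles of length two.
-/

set_option autoImplicit false

namespace Cfsg.Agent.AltCoverComm

open Equiv Equiv.Perm

variable {α : Type*} [Fintype α] [DecidableEq α]

theorem cycleType_of_sq {σ : Perm α} (h : σ * σ = 1) :
    σ.cycleType = Multiset.replicate (Multiset.card σ.cycleType) 2 := by
  rw [Multiset.eq_replicate_card]
  intro b hb
  have hd : b ∣ 2 := (dvd_of_mem_cycleType hb).trans (orderOf_dvd_of_pow_eq_one (by rw [sq, h]))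
  have h2 := two_le_of_mem_cycleType hb
  have h3 := Nat.le_of_dvd (by norm_num) hd
  omega

theorem support_card_of_sq {σ : Perm α} (h : σ * σ = 1) :
    σ.support.card = 2 * Multiset.card σ.cycleType ∧
      Perm.sign σ = (-1) ^ Multiset.card σ.cycleType := by
  have hs := σ.sum_cycleType
  have hr := cycleType_of_sq h
  have h1 : σ.support.card = 2 * Multiset.card σ.cycleType := by
    rw [← hs]
    conv_lhs => rw [hr]
    simp [mul_comm]
  refine ⟨h1, ?_⟩
  rw [Perm.sign_of_cycleType, hs, h1, pow_add, pow_mul]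
  simp

theorem apply_of_sq {σ : Perm α} (h : σ * σ = 1) (x : α) : σ (σ x) = x := by
  rw [← Perm.mul_apply, h, Perm.one_apply]

/-- An involution inverting a cycle, supported in its support. -/
theorem exists_inverter {c : Perm α} (hc : c.IsCycle) :
    ∃ σ : Perm α, σ * σ = 1 ∧ σ * c * σ = c⁻¹ ∧ σ.support ⊆ c.support := by
  classical
  obtain ⟨x, hx, hsame⟩ := hc
  have key : ∀ y, c y ≠ y → ∃ i : ℤ, (c ^ i) x = y := fun y hy => hsame hy
  choose idx hidx using key
  let f : α → α := fun y => if h : c y ≠ y then (c ^ (-(idx y h))) x else y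
  have hmv : ∀ i : ℤ, c ((c ^ i) x) ≠ (c ^ i) x := by
    intro i h
    apply hx
    rw [← Perm.mul_apply, ← zpow_one_add, add_comm, zpow_add_one, Perm.mul_apply] at h
    exact (c ^ i).injective h
  have hf : ∀ i : ℤ, f ((c ^ i) x) = (c ^ (-i)) x := by
    intro i
    simp only [f, dif_pos (hmv i)]
    set j := idx _ (hmv i) with hj
    have hji : (c ^ j) x = (c ^ i) x := hidx _ (hmv i)
    apply (c ^ (i + j)).injective
    rw [← Perm.mul_apply, ← Perm.mul_apply, ← zpow_add, ← zpow_add]
    simp only [add_neg_cancel_right, add_neg_cancel_comm]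
    exact hji.symm
  have hff : Function.Involutive f := by
    intro y
    by_cases hy : c y ≠ y
    · rw [← hidx y hy, hf, hf, neg_neg]
    · simp only [f, dif_neg hy]
  refine ⟨hff.toPerm, Equiv.ext hff, ?_, ?_⟩
  · refine Equiv.ext fun y => ?_
    show f (c (f y)) = c⁻¹ y
    by_cases hy : c y ≠ y
    · rw [← hidx y hy, hf]
      rw [show c ((c ^ (-(idx y hy))) x) = (c ^ (1 + -(idx y hy))) x by
        rw [zpow_one_add, Perm.mul_apply], hf, ← Perm.mul_apply,
        show c⁻¹ * c ^ (idx y hy) = c ^ (-(1 + -(idx y hy))) by group]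
    · rw [not_not] at hy
      have h1 : f y = y := by simp only [f, dif_neg (not_not.2 hy)]
      rw [h1, hy, h1, Perm.eq_inv_iff_eq, hy]
  · intro y hy
    rw [Perm.mem_support] at hy ⊢
    intro h
    exact hy (show f y = y by simp only [f, dif_neg (not_not.2 h)])

/-- An involution inverting a cycle fixes at most two of its points. -/
theorem fixed_le_two {c σ : Perm α} (hc : c.IsCycle) (hs : σ * σ = 1) (hinv : σ * c * σ = c⁻¹) :
    (c.support.filter fun y => σ y = y).card ≤ 2 := by
  classical
  rcases (c.support.filter fun y => σ y = y).eq_empty_or_nonempty with h | ⟨x, hx⟩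
  · rw [h]; simp
  rw [Finset.mem_filter, Perm.mem_support] at hx
  have hconj : ∀ i : ℤ, σ * c ^ i * σ = (c ^ i)⁻¹ := by
    intro i
    rw [← inv_zpow, ← hinv]
    conv_rhs => rw [show σ * c * σ = σ * c * σ⁻¹ by rw [inv_eq_of_mul_eq_one_right hs]]
    rw [conj_zpow, inv_eq_of_mul_eq_one_right hs]
  let Sq : Finset (Subgroup.zpowers c) := Finset.univ.filter fun u => u ^ 2 = 1
  refine (Finset.card_le_card (t := Sq.image fun u : Subgroup.zpowers c => (u.1 : Perm α) x) ?_).trans
    (Finset.card_image_le.trans (IsCyclic.card_pow_eq_one_le two_pos))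
  intro y hy
  rw [Finset.mem_filter, Perm.mem_support] at hy
  obtain ⟨i, hi⟩ := hc.sameCycle hx.1 hy.1
  refine Finset.mem_image.2 ⟨(⟨c ^ i, i, rfl⟩ : Subgroup.zpowers c), Finset.mem_filter.2 ⟨Finset.mem_univ _, ?_⟩, hi⟩
  have h1 : (c ^ i)⁻¹ x = (c ^ i) x := by
    rw [← hconj i, Perm.mul_apply, Perm.mul_apply, hx.2, hi, hy.2]
  have h2 : (c ^ (i + i)) x = x := by
    rw [zpow_add, Perm.mul_apply]
    rw [← h1]
    rw [Perm.inv_def, Equiv.apply_symm_apply]
  apply Subtype.ext
  show (c ^ i) ^ 2 = 1
  rw [sq, ← zpow_add]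
  by_contra hne
  rcases Int.natAbs_eq (i + i) with he | he
  · rw [he, zpow_natCast] at h2 hne
    exact hne ((hc.pow_eq_one_iff' (n := (i + i).natAbs) hx.1).2 h2)
  · rw [he, zpow_neg, zpow_natCast] at h2 hne
    rw [Perm.inv_eq_iff_eq] at h2
    exact hne (inv_eq_one.2 ((hc.pow_eq_one_iff' (n := (i + i).natAbs) hx.1).2 h2.symm))

/-- Decomposition into two involutions with controlled supports. -/
def Good (p : Perm α) : Prop :=
  ∃ σ τ : Perm α, σ * σ = 1 ∧ τ * τ = 1 ∧ p = σ * τ ∧ σ.support ⊆ p.support ∧
    τ.support ⊆ p.support ∧ (p ≠ 1 → σ.support ≠ p.support ∨ τ.support ≠ p.support) ∧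
    (Perm.sign p = 1 → σ.support.card = τ.support.card) ∧
    (Perm.sign p = -1 → σ.support.card = τ.support.card + 2)

theorem support_conj_card (σ τ : Perm α) : (σ * τ * σ⁻¹).support.card = τ.support.card := by
  rw [Perm.support_conj, Finset.card_map]

/-- Exchanging the two involutions. -/
theorem exists_swapped {p σ τ : Perm α} (hs : σ * σ = 1) (ht : τ * τ = 1) (hp : p = σ * τ)
    (hσ : σ.support ⊆ p.support) (hτ : τ.support ⊆ p.support)
    (hne : p ≠ 1 → σ.support ≠ p.support ∨ τ.support ≠ p.support) :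
    ∃ σ' τ' : Perm α, σ' * σ' = 1 ∧ τ' * τ' = 1 ∧ p = σ' * τ' ∧ σ'.support ⊆ p.support ∧
      τ'.support ⊆ p.support ∧ (p ≠ 1 → σ'.support ≠ p.support ∨ τ'.support ≠ p.support) ∧
      σ'.support.card = τ.support.card ∧ τ'.support.card = σ.support.card := by
  have hsi : σ⁻¹ = σ := inv_eq_of_mul_eq_one_right hs
  have hpres : ∀ y ∈ p.support, σ y ∈ p.support := by
    intro y hy
    by_cases h : σ y = y
    · rwa [h]
    · exact hσ (Perm.apply_mem_support.2 (Perm.mem_support.2 h))
  have hsub : (σ * τ * σ⁻¹).support ⊆ p.support := by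
    rw [Perm.support_conj]
    intro y hy
    obtain ⟨w, hw, rfl⟩ := Finset.mem_map.1 hy
    exact hpres w (hτ hw)
  refine ⟨σ * τ * σ⁻¹, σ, ?_, hs, ?_, hsub, hσ, fun h1 => ?_, support_conj_card σ τ, rfl⟩
  · rw [show σ * τ * σ⁻¹ * (σ * τ * σ⁻¹) = σ * (τ * τ) * σ⁻¹ by group, ht, mul_one, mul_inv_cancel]
  · rw [inv_mul_cancel_right, hp]
  · rcases hne h1 with h | h
    · exact Or.inr h
    · refine Or.inl fun e => h (Finset.eq_of_subset_of_card_le hτ ?_)
      rw [← e, support_conj_card]

theorem good_all (p : Perm α) : Good p := by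
  induction p using Equiv.Perm.cycle_induction_on with
  | base_one =>
    exact ⟨1, 1, mul_one 1, mul_one 1, (mul_one 1).symm, le_rfl, le_rfl, fun h => absurd rfl h,
      fun _ => rfl, fun h => absurd h (by simp)⟩
  | base_cycles c hc =>
    obtain ⟨σ, hs, hinv, hsub⟩ := exists_inverter hc
    have hsi : σ⁻¹ = σ := inv_eq_of_mul_eq_one_right hs
    set τ := σ * c with hτ
    have ht : τ * τ = 1 := by rw [hτ, ← mul_assoc, hinv, inv_mul_cancel]
    have htinv : τ * c * τ = c⁻¹ := by
      rw [hτ]
      calc σ * c * c * (σ * c) = (σ * c * σ) * (σ * c * σ) * c := by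
            simp only [← mul_assoc]
            rw [mul_assoc (σ * c) σ σ, hs, mul_one]
        _ = c⁻¹ := by rw [hinv, inv_mul_cancel_right]
    have hp : c = σ * τ := by rw [hτ, ← mul_assoc, hs, one_mul]
    have htsub : τ.support ⊆ c.support := by
      intro y hy
      rw [Perm.mem_support] at hy ⊢
      intro h
      apply hy
      rw [hτ, Perm.mul_apply, h]
      by_contra h'
      exact (Perm.mem_support.1 (hsub (Perm.mem_support.2 h'))) h
    have hfix : ∀ (ρ : Perm α), ρ.support ⊆ c.support →
        ρ.support.card + (c.support.filter fun y => ρ y = y).card = c.support.card := by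
      intro ρ hρ
      have : ρ.support = c.support.filter fun y => ¬ ρ y = y := by
        ext y
        rw [Finset.mem_filter, Perm.mem_support]
        exact ⟨fun h => ⟨hρ (Perm.mem_support.2 h), h⟩, fun h => h.2⟩
      rw [this, add_comm, Finset.card_filter_add_card_filter_not]
    have f1 := hfix σ hsub
    have f2 := hfix τ htsub
    have b1 := fixed_le_two hc hs hinv
    have b2 := fixed_le_two hc ht htinv
    obtain ⟨e1, g1⟩ := support_card_of_sq hs
    obtain ⟨e2, g2⟩ := support_card_of_sq ht
    set s := Multiset.card σ.cycleType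
    set t := Multiset.card τ.cycleType
    have hsign : Perm.sign c = (-1) ^ (s + t) := by rw [hp, map_mul, g1, g2, pow_add]
    have hcs : Perm.sign c = -(-1) ^ c.support.card := hc.sign
    have hpar : (s + t + c.support.card) % 2 = 1 := by
      rcases Nat.mod_two_eq_zero_or_one (s + t + c.support.card) with h | h
      · exfalso
        rw [hsign] at hcs
        have hh : ((-1 : ℤˣ)) ^ (s + t + c.support.card) = -1 := by
          rw [pow_add, hcs, neg_mul, ← mul_pow]
          simp
        rw [Even.neg_one_pow (Nat.even_iff.2 h)] at hh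
        exact absurd hh (by decide)
      · exact h
    have hm := hc.two_le_card_support
    have hne : σ.support ≠ c.support ∨ τ.support ≠ c.support := by
      by_contra hcon
      rw [not_or, not_not, not_not] at hcon
      rw [hcon.1] at e1
      rw [hcon.2] at e2
      omega
    by_cases hor : τ.support.card ≤ σ.support.card
    · refine ⟨σ, τ, hs, ht, hp, hsub, htsub, fun _ => hne, fun h => ?_, fun h => ?_⟩
      · rw [hcs] at h
        rcases Nat.even_or_odd c.support.card with he | ho
        · rw [he.neg_one_pow] at h; exact absurd h (by decide)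
        · rw [Nat.odd_iff] at ho; omega
      · rw [hcs] at h
        rcases Nat.even_or_odd c.support.card with he | ho
        · rw [Nat.even_iff] at he; omega
        · rw [ho.neg_one_pow, neg_neg] at h; exact absurd h (by decide)
    · obtain ⟨σ', τ', h1, h2, h3, h4, h5, h6, h7, h8⟩ :=
        exists_swapped hs ht hp hsub htsub fun _ => hne
      refine ⟨σ', τ', h1, h2, h3, h4, h5, h6, fun h => ?_, fun h => ?_⟩
      · rw [hcs] at h
        rcases Nat.even_or_odd c.support.card with he | ho
        · rw [he.neg_one_pow] at h; exact absurd h (by decide)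
        · rw [Nat.odd_iff] at ho; omega
      · rw [hcs] at h
        rcases Nat.even_or_odd c.support.card with he | ho
        · rw [Nat.even_iff] at he; omega
        · rw [ho.neg_one_pow, neg_neg] at h; exact absurd h (by decide)
  | induction_disjoint p1 p2 hd hc ih1 ih2 =>
    obtain ⟨a1, b1, ha1, hb1, hp1, sa1, sb1, hn1, he1, ho1⟩ := ih1
    obtain ⟨a2', b2', ha2', hb2', hp2', sa2', sb2', hn2', he2, ho2⟩ := ih2
    have hd' := (Perm.disjoint_iff_disjoint_support.1 hd)
    have main : ∀ a2 b2 : Perm α, a2 * a2 = 1 → b2 * b2 = 1 → p2 = a2 * b2 →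
        a2.support ⊆ p2.support → b2.support ⊆ p2.support →
        (p2 ≠ 1 → a2.support ≠ p2.support ∨ b2.support ≠ p2.support) →
        (Perm.sign (p1 * p2) = 1 → (a1.support.card + a2.support.card) =
          (b1.support.card + b2.support.card)) →
        (Perm.sign (p1 * p2) = -1 → (a1.support.card + a2.support.card) =
          (b1.support.card + b2.support.card) + 2) → Good (p1 * p2) := by
      intro a2 b2 ha2 hb2 hp2 sa2 sb2 hn2 hE hO
      have dd : ∀ u v : Perm α, u.support ⊆ p1.support → v.support ⊆ p2.support → u.Disjoint v :=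
        fun u v hu hv => Perm.disjoint_iff_disjoint_support.2 (hd'.mono hu hv)
      have sab : ∀ u v : Perm α, u.support ⊆ p1.support → v.support ⊆ p2.support →
          (u * v).support = u.support ∪ v.support := fun u v hu hv => (dd u v hu hv).support_mul
      have sp : (p1 * p2).support = p1.support ∪ p2.support := hd.support_mul
      refine ⟨a1 * a2, b1 * b2, ?_, ?_, ?_, ?_, ?_, fun _ => ?_, ?_, ?_⟩
      · rw [mul_assoc, ← mul_assoc a2, ← ((dd a1 a2 sa1 sa2).commute).eq, mul_assoc, ← mul_assoc, ha1, ha2,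
          one_mul]
      · rw [mul_assoc, ← mul_assoc b2, ← ((dd b1 b2 sb1 sb2).commute).eq, mul_assoc, ← mul_assoc, hb1, hb2,
          one_mul]
      · rw [hp1, hp2, mul_assoc, ← mul_assoc b1, ((dd b1 a2 sb1 sa2).commute).eq, mul_assoc,
          ← mul_assoc a1]
      · rw [sab a1 a2 sa1 sa2, sp]; exact Finset.union_subset_union sa1 sa2
      · rw [sab b1 b2 sb1 sb2, sp]; exact Finset.union_subset_union sb1 sb2
      · have h1ne : p1 ≠ 1 := hc.ne_one
        have aux : ∀ u v : Perm α, u.support ⊆ p1.support → v.support ⊆ p2.support →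
            u.support ≠ p1.support → (u * v).support ≠ (p1 * p2).support := by
          intro u v hu hv hne e
          rw [sab u v hu hv, sp] at e
          refine hne (Finset.Subset.antisymm hu fun y hy => ?_)
          have : y ∈ u.support ∪ v.support := e ▸ Finset.mem_union_left _ hy
          rcases Finset.mem_union.1 this with h | h
          · exact h
          · exact absurd (hv h) (Finset.disjoint_left.1 hd' hy)
        rcases hn1 h1ne with h | h
        · exact Or.inl (aux a1 a2 sa1 sa2 h)
        · exact Or.inr (aux b1 b2 sb1 sb2 h)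
      · intro h
        rw [sab a1 a2 sa1 sa2, sab b1 b2 sb1 sb2,
          Finset.card_union_of_disjoint (hd'.mono sa1 sa2), Finset.card_union_of_disjoint (hd'.mono sb1 sb2)]
        exact hE h
      · intro h
        rw [sab a1 a2 sa1 sa2, sab b1 b2 sb1 sb2,
          Finset.card_union_of_disjoint (hd'.mono sa1 sa2), Finset.card_union_of_disjoint (hd'.mono sb1 sb2)]
        exact hO h
    rcases Int.units_eq_one_or (Perm.sign p1) with h1 | h1 <;>
      rcases Int.units_eq_one_or (Perm.sign p2) with h2 | h2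
    · refine main a2' b2' ha2' hb2' hp2' sa2' sb2' hn2' (fun _ => ?_) (fun h => ?_)
      · have := he1 h1; have := he2 h2; omega
      · rw [map_mul, h1, h2] at h; exact absurd h (by decide)
    · refine main a2' b2' ha2' hb2' hp2' sa2' sb2' hn2' (fun h => ?_) (fun _ => ?_)
      · rw [map_mul, h1, h2] at h; exact absurd h (by decide)
      · have := he1 h1; have := ho2 h2; omega
    · refine main a2' b2' ha2' hb2' hp2' sa2' sb2' hn2' (fun h => ?_) (fun _ => ?_)
      · rw [map_mul, h1, h2] at h; exact absurd h (by decide)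
      · have := ho1 h1; have := he2 h2; omega
    · obtain ⟨a2, b2, q1, q2, q3, q4, q5, q6, q7, q8⟩ :=
        exists_swapped ha2' hb2' hp2' sa2' sb2' hn2'
      refine main a2 b2 q1 q2 q3 q4 q5 q6 (fun _ => ?_) (fun h => ?_)
      · have := ho1 h1; have := ho2 h2; omega
      · rw [map_mul, h1, h2] at h; exact absurd h (by decide)

/-- Two cycles of length two. -/
def TwoPairs (y : Perm α) : Prop :=
  ∃ a b c d : α, a ≠ b ∧ a ≠ c ∧ a ≠ d ∧ b ≠ c ∧ b ≠ d ∧ c ≠ d ∧
    y a = b ∧ y b = a ∧ y c = d ∧ y d = c

theorem twoPairs_of_card {σ : Perm α} {S : Finset α} (hS : 3 ≤ S.card)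
    (hmv : ∀ y ∈ S, σ y ≠ y ∧ σ (σ y) = y) : TwoPairs σ := by
  obtain ⟨a, ha⟩ : S.Nonempty := Finset.card_pos.1 (by omega)
  obtain ⟨c, hc⟩ : (S \ {a, σ a}).Nonempty := by
    refine Finset.card_pos.1 ?_
    have := Finset.le_card_sdiff {a, σ a} S
    have := Finset.card_le_two (a := a) (b := σ a)
    omega
  rw [Finset.mem_sdiff, Finset.mem_insert, Finset.mem_singleton, not_or] at hc
  obtain ⟨hcS, hca, hcσa⟩ := hc
  refine ⟨a, σ a, c, σ c, (hmv a ha).1.symm, Ne.symm hca, ?_, Ne.symm hcσa, ?_, (hmv c hcS).1.symm,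
    rfl, (hmv a ha).2, rfl, (hmv c hcS).2⟩
  · intro e
    apply hcσa
    rw [e, (hmv c hcS).2]
  · intro e
    exact hca (σ.injective e).symm

/-- An involution times a transposition of a fixed and a moved point. -/
theorem cycleType_mul_swap {σ : Perm α} (hs : σ * σ = 1) {a b : α} (ha : σ a = a) (hb : σ b ≠ b) :
    (σ * swap a b).cycleType = 3 ::ₘ Multiset.replicate (Multiset.card σ.cycleType - 1) 2 ∧
      ∀ y, y ≠ a → y ≠ b → y ≠ σ b → (σ * swap a b) y = σ y := by
  set b' := σ b with hb'
  have hbb : σ b' = b := apply_of_sq hs b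
  have hab : a ≠ b := fun e => hb (by subst e; exact ha)
  have hab' : a ≠ b' := fun e => hab (by rw [← hbb, ← e, ha])
  set σ' := swap b b' * σ with hσ'
  have hdec : σ = swap b b' * σ' := by rw [hσ', ← mul_assoc, swap_mul_self, one_mul]
  have f1 : σ' b = b := by rw [hσ', Perm.mul_apply, ← hb', swap_apply_right]
  have f2 : σ' b' = b' := by rw [hσ', Perm.mul_apply, hbb, swap_apply_left]
  have f3 : σ' a = a := by rw [hσ', Perm.mul_apply, ha, swap_apply_of_ne_of_ne hab hab']
  have hd1 : (swap b b').Disjoint σ' := fun y => by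
    by_cases h1 : y = b
    · exact Or.inr (h1 ▸ f1)
    by_cases h2 : y = b'
    · exact Or.inr (h2 ▸ f2)
    exact Or.inl (swap_apply_of_ne_of_ne h1 h2)
  have hct : σ.cycleType = 2 ::ₘ σ'.cycleType := by
    conv_lhs => rw [hdec]
    rw [hd1.cycleType_mul, (Perm.isCycle_swap (Ne.symm hb)).cycleType,
      Perm.card_support_swap (Ne.symm hb)]
    rfl
  have hd2 : (swap a b).Disjoint σ' := fun y => by
    by_cases h1 : y = a
    · exact Or.inr (h1 ▸ f3)
    by_cases h2 : y = b
    · exact Or.inr (h2 ▸ f1)
    exact Or.inl (swap_apply_of_ne_of_ne h1 h2)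
  have hprod : σ * swap a b = (swap b b' * swap a b) * σ' := by
    conv_lhs => rw [hdec]
    rw [mul_assoc, ← hd2.commute.eq, ← mul_assoc]
  have h3c : (swap b b' * swap a b).IsThreeCycle := by
    rw [swap_comm a b]
    exact Perm.isThreeCycle_swap_mul_swap_same (Ne.symm hb) (Ne.symm hab) hab'.symm
  refine ⟨?_, fun y h1 h2 h3 => ?_⟩
  · have hd3 : (swap b b' * swap a b).Disjoint σ' := hd1.mul_left hd2
    rw [hprod, hd3.cycleType_mul, h3c.cycleType]
    have hr := cycleType_of_sq hs
    rw [hct] at hr ⊢
    rw [Multiset.card_cons, Multiset.replicate_succ, Multiset.cons_inj_right] at hr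
    rw [Multiset.card_cons, Nat.add_sub_cancel, ← hr, Multiset.singleton_add]
  · rw [Perm.mul_apply, swap_apply_of_ne_of_ne h1 h2]

/-- The decomposition used for the double cover. -/
theorem exists_pair (hn : 5 ≤ Fintype.card α) {p : Perm α} (hp : Perm.sign p = 1) (hp1 : p ≠ 1) :
    ∃ a y : Perm α, Perm.sign y = 1 ∧ TwoPairs y ∧ a * y * a⁻¹ * y⁻¹ = p := by
  classical
  obtain ⟨σ, τ, hs, ht, hpe, hsS, htS, hne, heq, -⟩ := good_all p
  have hcard := heq hp
  obtain ⟨e1, g1⟩ := support_card_of_sq hs
  obtain ⟨e2, g2⟩ := support_card_of_sq ht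
  have fin : ∀ x y : Perm α, Perm.sign y = 1 → TwoPairs y → x.cycleType = y.cycleType → p = x * y⁻¹ →
      ∃ a y : Perm α, Perm.sign y = 1 ∧ TwoPairs y ∧ a * y * a⁻¹ * y⁻¹ = p := by
    intro x y h1 h2 h3 h4
    obtain ⟨a, ha⟩ := isConj_iff.1 ((Perm.isConj_iff_cycleType_eq).2 h3.symm)
    exact ⟨a, y, h1, h2, by rw [ha, ← h4]⟩
  set t := Multiset.card τ.cycleType with ht'
  have hst : Multiset.card σ.cycleType = t := by omega
  have htype : σ.cycleType = τ.cycleType := by
    rw [cycleType_of_sq hs, cycleType_of_sq ht, hst]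
  have ht0 : t ≠ 0 := by
    intro h0
    apply hp1
    have h1 : σ = 1 := Perm.cycleType_eq_zero.1 (Multiset.card_eq_zero.1 (hst.trans h0))
    have h2 : τ = 1 := Perm.cycleType_eq_zero.1 (Multiset.card_eq_zero.1 h0)
    rw [hpe, h1, h2, mul_one]
  have hti : τ⁻¹ = τ := inv_eq_of_mul_eq_one_right ht
  rcases Nat.even_or_odd t with hev | hodd
  · refine fin σ τ (by rw [g2, hev.neg_one_pow]) ?_ htype (by rw [hti, hpe])
    refine twoPairs_of_card (S := τ.support) ?_ fun y hy => ⟨Perm.mem_support.1 hy, apply_of_sq ht y⟩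
    rw [Nat.even_iff] at hev
    omega
  -- odd number of transpositions
  have hsupp : σ.support ≠ τ.support := by
    intro e
    have : σ.support = p.support := by
      refine Finset.Subset.antisymm hsS fun y hy => ?_
      by_contra hy'
      have hy2 : y ∉ τ.support := e ▸ hy'
      rw [Perm.notMem_support] at hy' hy2
      exact Perm.mem_support.1 hy (by rw [hpe, Perm.mul_apply, hy2, hy'])
    rcases hne hp1 with h | h
    · exact h this
    · exact h (e ▸ this)
  obtain ⟨a, haτ, haσ⟩ : ∃ a, a ∈ τ.support ∧ a ∉ σ.support := by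
    by_contra hcon
    push Not at hcon
    exact hsupp (Finset.eq_of_subset_of_card_le hcon (by rw [hcard])).symm
  obtain ⟨b, hbσ, hbτ⟩ : ∃ b, b ∈ σ.support ∧ b ∉ τ.support := by
    by_contra hcon
    push Not at hcon
    exact hsupp (Finset.eq_of_subset_of_card_le hcon (by rw [hcard]))
  rw [Perm.mem_support] at haτ hbσ
  rw [Perm.notMem_support] at haσ hbτ
  by_cases h3 : 3 ≤ t
  · obtain ⟨hσw, -⟩ := cycleType_mul_swap hs haσ hbσ
    obtain ⟨hτw, hact⟩ := cycleType_mul_swap ht hbτ haτ
    rw [swap_comm b a] at hτw hact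
    have hab : a ≠ b := fun e => hbσ (e ▸ haσ)
    refine fin (σ * swap a b) (τ * swap a b) ?_ ?_ (by rw [hσw, hτw, hst]) ?_
    · rw [map_mul, g2, hodd.neg_one_pow, Perm.sign_swap hab]; rfl
    · refine twoPairs_of_card (S := τ.support \ {b, a, τ a}) ?_ fun y hy => ?_
      · have := Finset.le_card_sdiff {b, a, τ a} τ.support
        have := Finset.card_le_three (a := b) (b := a) (c := τ a)
        omega
      · simp only [Finset.mem_sdiff, Finset.mem_insert, Finset.mem_singleton, not_or,
          Perm.mem_support] at hy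
        obtain ⟨hy0, hyb, hya, hyτ⟩ := hy
        have h1 : (τ * swap a b) y = τ y := hact y hyb hya hyτ
        refine ⟨by rw [h1]; exact hy0, ?_⟩
        rw [h1, hact (τ y) ?_ ?_ ?_, apply_of_sq ht]
        · intro e; exact hy0 (by rw [show y = b by rw [← apply_of_sq ht y, e, hbτ], hbτ])
        · intro e; exact hyτ (by rw [← apply_of_sq ht y, e])
        · intro e; exact hya (τ.injective e)
    · rw [mul_inv_rev, swap_inv, mul_assoc, ← mul_assoc (swap a b), swap_mul_self, one_mul, hti, hpe]
  -- two transpositions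
  have ht1 : t = 1 := by rw [Nat.odd_iff] at hodd; omega
  obtain ⟨u, v, huv, hσe⟩ := Perm.card_support_eq_two.1 (show σ.support.card = 2 by omega)
  obtain ⟨u', v', huv', hτe⟩ := Perm.card_support_eq_two.1 (show τ.support.card = 2 by omega)
  by_cases hdis : Disjoint σ.support τ.support
  · subst hσe hτe
    rw [Perm.support_swap huv, Perm.support_swap huv'] at hdis
    simp only [Finset.disjoint_insert_left, Finset.disjoint_singleton_left, Finset.mem_insert,
      Finset.mem_singleton, not_or] at hdis
    obtain ⟨⟨k1, k2⟩, k3, k4⟩ := hdis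
    have hd1 : (swap u v').Disjoint (swap v u') :=
      Perm.disjoint_iff_disjoint_support.2 (by
        rw [Perm.support_swap k2, Perm.support_swap k3]
        simp only [Finset.disjoint_insert_left, Finset.disjoint_singleton_left, Finset.mem_insert,
          Finset.mem_singleton, not_or]
        exact ⟨⟨huv, k1⟩, Ne.symm k4, Ne.symm huv'⟩)
    have hd2 : (swap u u').Disjoint (swap v v') :=
      Perm.disjoint_iff_disjoint_support.2 (by
        rw [Perm.support_swap k1, Perm.support_swap k4]
        simp only [Finset.disjoint_insert_left, Finset.disjoint_singleton_left, Finset.mem_insert,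
          Finset.mem_singleton, not_or]
        exact ⟨⟨huv, k2⟩, Ne.symm k3, huv'⟩)
    refine fin (swap u u' * swap v v') (swap u v' * swap v u') ?_ ⟨u, v', v, u', k2, huv, k1, Ne.symm k4,
      Ne.symm huv', k3, ?_, ?_, ?_, ?_⟩ ?_ ?_
    · rw [map_mul, Perm.sign_swap k2, Perm.sign_swap k3]; rfl
    · rw [Perm.mul_apply, swap_apply_of_ne_of_ne huv k1, swap_apply_left]
    · rw [Perm.mul_apply, swap_apply_of_ne_of_ne (Ne.symm k4) (Ne.symm huv'), swap_apply_right]
    · rw [Perm.mul_apply, swap_apply_left, swap_apply_of_ne_of_ne (Ne.symm k1) huv']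
    · rw [Perm.mul_apply, swap_apply_right, swap_apply_of_ne_of_ne (Ne.symm huv) k4]
    · rw [hd1.cycleType_mul, hd2.cycleType_mul, (Perm.isCycle_swap k1).cycleType,
        (Perm.isCycle_swap k2).cycleType, (Perm.isCycle_swap k3).cycleType,
        (Perm.isCycle_swap k4).cycleType, Perm.card_support_swap k1, Perm.card_support_swap k2,
        Perm.card_support_swap k3, Perm.card_support_swap k4]
    · rw [hpe, mul_inv_rev, swap_inv, swap_inv]
      refine Equiv.ext fun y => ?_
      simp only [Perm.mul_apply]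
      by_cases q1 : y = u
      · subst q1; simp [swap_apply_def, huv, k1, k2, k3, k4, huv', Ne.symm huv, Ne.symm k1, Ne.symm k2,
          Ne.symm k3, Ne.symm k4, Ne.symm huv']
      by_cases q2 : y = v
      · subst q2; simp [swap_apply_def, huv, k1, k2, k3, k4, huv', Ne.symm huv, Ne.symm k1, Ne.symm k2,
          Ne.symm k3, Ne.symm k4, Ne.symm huv']
      by_cases q3 : y = u'
      · subst q3; simp [swap_apply_def, huv, k1, k2, k3, k4, huv', Ne.symm huv, Ne.symm k1, Ne.symm k2,
          Ne.symm k3, Ne.symm k4, Ne.symm huv']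
      by_cases q4 : y = v'
      · subst q4; simp [swap_apply_def, huv, k1, k2, k3, k4, huv', Ne.symm huv, Ne.symm k1, Ne.symm k2,
          Ne.symm k3, Ne.symm k4, Ne.symm huv']
      simp [swap_apply_def, q1, q2, q3, q4]
  · -- two common fixed points
    have hu : (σ.support ∪ τ.support).card + 2 ≤ Fintype.card α := by
      have h := Finset.card_union_add_card_inter σ.support τ.support
      have h1 : 1 ≤ (σ.support ∩ τ.support).card := by
        rw [Finset.disjoint_iff_inter_eq_empty, ← Finset.card_eq_zero] at hdis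
        omega
      omega
    obtain ⟨c, hc, d, hd, hcd⟩ : ∃ c, c ∈ (σ.support ∪ τ.support)ᶜ ∧
        ∃ d, d ∈ (σ.support ∪ τ.support)ᶜ ∧ c ≠ d := by
      have h1 : 1 < ((σ.support ∪ τ.support)ᶜ).card := by rw [Finset.card_compl]; omega
      obtain ⟨c, hc, d, hd, hcd⟩ := Finset.one_lt_card.1 h1
      exact ⟨c, hc, d, hd, hcd⟩
    simp only [Finset.mem_compl, Finset.mem_union, not_or, Perm.notMem_support] at hc hd
    have hσd : σ.Disjoint (swap c d) := fun y => by
      by_cases h1 : y = c
      · exact Or.inl (h1 ▸ hc.1)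
      by_cases h2 : y = d
      · exact Or.inl (h2 ▸ hd.1)
      exact Or.inr (swap_apply_of_ne_of_ne h1 h2)
    have hτd : τ.Disjoint (swap c d) := fun y => by
      by_cases h1 : y = c
      · exact Or.inl (h1 ▸ hc.2)
      by_cases h2 : y = d
      · exact Or.inl (h2 ▸ hd.2)
      exact Or.inr (swap_apply_of_ne_of_ne h1 h2)
    refine fin (σ * swap c d) (τ * swap c d) ?_ ⟨u', v', c, d, huv', ?_, ?_, ?_, ?_, hcd, ?_, ?_, ?_, ?_⟩
      ?_ ?_
    · rw [map_mul, g2, hodd.neg_one_pow, Perm.sign_swap hcd]; rfl
    all_goals first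
      | (rw [hσd.cycleType_mul, hτd.cycleType_mul, htype]; done)
      | (rw [mul_inv_rev, swap_inv, mul_assoc, ← mul_assoc (swap c d), swap_mul_self, one_mul, hti,
          hpe]; done)
      | skip
    all_goals
      subst hτe
      have n1 : c ≠ u' := fun e => huv' (by
        have h' := hc.2; rw [e, swap_apply_left] at h'; exact h'.symm)
      have n2 : c ≠ v' := fun e => huv' (by
        have h' := hc.2; rw [e, swap_apply_right] at h'; exact h')
      have n3 : d ≠ u' := fun e => huv' (by
        have h' := hd.2; rw [e, swap_apply_left] at h'; exact h'.symm)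
      have n4 : d ≠ v' := fun e => huv' (by
        have h' := hd.2; rw [e, swap_apply_right] at h'; exact h')
      first
        | exact Ne.symm n1
        | exact Ne.symm n2
        | exact Ne.symm n3
        | exact Ne.symm n4
        | simp [swap_apply_def, n1, n2, n3, n4, Ne.symm n1, Ne.symm n2, Ne.symm n3, Ne.symm n4, huv',
            Ne.symm huv', hcd, Ne.symm hcd]

end Cfsg.Agent.AltCoverComm
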